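import Groth.Agent.Dual.H318.OneDegree
import Groth.Agent.Dual.H319.Core
import Groth.Agent.S1790
import Groth.Agent.Flat2D.CMCharts
import Groth.Agent.Grpsch.CMFibre

/-!
# `ω_{A/R} = φ^!(R)` for a flat finite type ring map with Cohen–Macaulay fibres of pure dimension `d`

`ring_main`: `H^i(ω) = 0` for `i ≠ -d`, and `H^{-d}(ω)` is a finite `A`-module flat over `R`.
-/

set_option autoImplicit false
universe u

open CategoryTheory CategoryTheory.Limits AlgebraicGeometry

attribute [local instance] HasDerivedCategory.standard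

namespace Groth.Agent.Dual.H318.CMRing

open Groth.Agent.Ega4C Groth.Agent.Flat2D

/-- Cohen–Macaulayness of the fibre at a point, in affine charts. -/
theorem isCM_fibLocRing {X Y : Scheme.{u}} (f : X ⟶ Y) {V : Y.Opens}
    (hV : IsAffineOpen V) {U : X.Opens} (hU : IsAffineOpen U) (e : U ≤ f ⁻¹ᵁ V) {x : X} (hx : x ∈ U)
    (h : MoreMor.IsCMAt f x) :
    letI := (f.appLE V U e).hom.toAlgebra
    LocCoh.IsCohenMacaulayLocalRing
      (EGA4.FibLocRing Γ(Y, V) Γ(X, U) (hU.primeIdealOf ⟨x, hx⟩).asIdeal) := by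
  let := (f.appLE V U e).hom.toAlgebra
  obtain ⟨e1⟩ := CMCharts.nonempty_quot_equiv f hV hU e hx
  obtain ⟨e2⟩ := FiberStalk.nonempty_asFiber_stalkEquiv' f x
  exact Grpsch.CMFibre.isCohenMacaulayLocalRing_of_ringEquiv (e2.symm.trans e1) h.2

section

variable {R A : Type u} [CommRing R] [CommRing A] [Algebra R A]

theorem isCM_congr {q q' : Ideal A} [q.IsPrime] [q'.IsPrime] (h : q = q')
    (hq : LocCoh.IsCohenMacaulayLocalRing (EGA4.FibLocRing R A q)) :
    LocCoh.IsCohenMacaulayLocalRing (EGA4.FibLocRing R A q') := by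
  subst h
  exact hq

variable [IsNoetherianRing R] [IsNoetherianRing A] [Module.Flat R A] (n : ℕ)
  (ψ : MvPolynomial (Fin n) R →ₐ[R] A)
  (hψ : Function.Surjective ψ) [DRing.HasLBaseChange (algebraMap R (MvPolynomial (Fin n) R))]
  (Rψ : Dual.D (MvPolynomial (Fin n) R) ⥤ Dual.D A) (adj : DRing.restrictD ψ.toRingHom ⊣ Rψ)

include hψ adj in
/-- At a prime `q` with Cohen–Macaulay fibre of local dimension `d`, `H^i(ω)_q ≠ 0` iff `i = -d`. -/
theorem mem_support_iff (d : ℕ) (q : PrimeSpectrum A)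
    (hCM : LocCoh.IsCohenMacaulayLocalRing (EGA4.FibLocRing R A q.asIdeal))
    (hd : FlatMor.fibreDimAt (Spec.map (CommRingCat.ofHom (algebraMap R A))) q = d) (i : ℤ) :
    q ∈ Module.support A (Dual.HD A (Dual2.shriekVia n Rψ (Dual.inD R R)) i) ↔ i = -(d : ℤ) := by
  obtain ⟨Q, hQ, hQq⟩ := FibreTower.exists_prime_fibre (q.asIdeal.comap (algebraMap R A)) q.asIdeal rfl
  have h1 : LocCoh.IsCohenMacaulayLocalRing (Localization.AtPrime Q) :=
    Grpsch.CMFibre.isCohenMacaulayLocalRing_of_ringEquiv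
      (FibreTower.locFibreEquiv (q.asIdeal.comap (algebraMap R A)) Q).symm (isCM_congr hQq.symm hCM)
  exact H319.Core.mem_support_iff_of_cm n ψ hψ Rψ adj ⟨q.asIdeal.comap (algebraMap R A), inferInstance⟩
    ⟨Q, hQ⟩ q hQq.symm d hd h1 i

include hψ adj in
/-- Cohen–Macaulay fibres of pure dimension `d`: `ω_{A/R}` is a finite `R`-flat module in degree `-d`. -/
theorem ring_main (d : ℕ)
    (hCM : ∀ q : PrimeSpectrum A, LocCoh.IsCohenMacaulayLocalRing (EGA4.FibLocRing R A q.asIdeal))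
    (hd : ∀ q : PrimeSpectrum A,
      FlatMor.fibreDimAt (Spec.map (CommRingCat.ofHom (algebraMap R A))) q = d) :
    (∀ i : ℤ, i ≠ -(d : ℤ) → Subsingleton (Dual.HD A (Dual2.shriekVia n Rψ (Dual.inD R R)) i)) ∧
    Module.Finite A (Dual.HD A (Dual2.shriekVia n Rψ (Dual.inD R R)) (-(d : ℤ))) ∧
    Module.Flat R ((ModuleCat.restrictScalars (algebraMap R A)).obj
      ((DerivedCategory.homologyFunctor (ModuleCat.{u} A) (-(d : ℤ))).obj
        (Dual2.shriekVia n Rψ (Dual.inD R R)))) := by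
  have h1 : ∀ i : ℤ, i ≠ -(d : ℤ) →
      Subsingleton (Dual.HD A (Dual2.shriekVia n Rψ (Dual.inD R R)) i) := by
    intro i hi
    rw [← Module.support_eq_empty_iff (R := A), Set.eq_empty_iff_forall_notMem]
    intro q hq
    exact hi ((mem_support_iff n ψ hψ Rψ adj d q (hCM q) (hd q) i).1 hq)
  exact ⟨h1, (S1801.result R A n ψ hψ Rψ adj).2.1 _,
    OneDegree.flat_HD_restrict (algebraMap R A) (-(d : ℤ)) 0 _
      ((S1790.result R A n ψ hψ Rψ adj d).2 fun q => (hd q).le) h1⟩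

end

end Groth.Agent.Dual.H318.CMRing
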