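import Groth.Agent.Flat2C.TorAmpRestr
import Groth.Agent.Dcoh.MapDer

/-!
# Complexes of flat modules with cohomology only in the bottom degree

* `flat_homology_of_exactAt`: `E` a complex of flat modules in degrees `[a, b]`, exact in all degrees `≠ a`; then
  `H^a(E)` is flat.
* `flat_HD_restrict`: `K ∈ D(S)` of tor amplitude `[a, b]` over `R` with cohomology only in degree `a`; then
  `H^a(K)` is flat over `R`.
-/

set_option autoImplicit false
universe u

open CategoryTheory CategoryTheory.Limits

attribute [local instance] HasDerivedCategory.standard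

namespace Groth.Agent.Dual.H318.OneDegree

open DRing Groth.Agent.Flat2C.TorAmpCone Groth.Agent.Flat2C.TorAmpRestr

section

variable {R : Type u} [CommRing R]

theorem exists_of_exactAt {E : Cx R} {i j k : ℤ} (hij : i + 1 = j) (hjk : j + 1 = k) (h : E.ExactAt j)
    (x : E.X j) (hx : (E.d j k).hom x = 0) : ∃ y : E.X i, (E.d i j).hom y = x := by
  rw [HomologicalComplex.exactAt_iff' E i j k (by simp; omega) (by simp; omega),
    ShortComplex.moduleCat_exact_iff] at h
  exact h x hx

/-- The kernels of the differentials are flat in degrees `≥ a`. -/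
theorem flat_ker (E : Cx R) (a b : ℤ) (hE0 : ∀ i, b < i → IsZero (E.X i)) (hEf : TermwiseFlat E)
    (hex : ∀ i, a < i → E.ExactAt i) (n : ℕ) :
    ∀ i j : ℤ, i + 1 = j → a ≤ i → b < i + n → Module.Flat R (LinearMap.ker (E.d i j).hom) := by
  induction n with
  | zero =>
    intro i j hij ha hb
    have h1 : Subsingleton (E.X i) := ModuleCat.subsingleton_of_isZero (hE0 i (by omega))
    have h3 : Subsingleton (LinearMap.ker (E.d i j).hom) := inferInstance
    infer_instance
  | succ n ih =>
    intro i j hij ha hb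
    obtain ⟨k, hjk⟩ : ∃ k, j + 1 = k := ⟨_, rfl⟩
    have h1 := ih j k hjk (by omega) (by omega)
    have := hEf i
    let g : E.X i →ₗ[R] LinearMap.ker (E.d j k).hom :=
      (E.d i j).hom.codRestrict _ (fun z => d_d_apply E i j k z)
    refine Ega3A.FlatSES.flat_left (f := (LinearMap.ker (E.d i j).hom).subtype) (g := g)
      (Submodule.injective_subtype _) ?_ ?_
    · intro z
      constructor
      · intro hz
        exact ⟨⟨z, congrArg Subtype.val hz⟩, rfl⟩
      · rintro ⟨z, rfl⟩
        exact Subtype.ext z.2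
    · rintro ⟨z, hz⟩
      obtain ⟨w, hw⟩ := exists_of_exactAt hij hjk (hex j (by omega)) z hz
      exact ⟨w, Subtype.ext hw⟩

theorem nonempty_homology_equiv (E : Cx R) {h i j : ℤ} (hhi : h + 1 = i) (hij : i + 1 = j)
    (h0 : IsZero (E.X h)) : Nonempty (E.homology i ≃ₗ[R] LinearMap.ker (E.d i j).hom) := by
  have e1 : E.cycles i ≅ E.homology i :=
    E.isoHomologyπ h i (by simp; omega) (h0.eq_of_src _ _)
  have h1 := E.cyclesIsKernel i j (by simp; omega)
  have h2 := ModuleCat.kernelIsLimit (E.d i j)
  exact ⟨(e1.symm ≪≫ IsLimit.conePointUniqueUpToIso h1 h2).toLinearEquiv⟩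

/-- A bounded complex of flat modules, exact except at its bottom degree `a`, has flat `H^a`. -/
theorem flat_homology_of_exactAt (E : Cx R) (a b : ℤ) (hE0 : VanishesOutside E a b) (hEf : TermwiseFlat E)
    (hex : ∀ i, i ≠ a → E.ExactAt i) : Module.Flat R (E.homology a) := by
  obtain ⟨e⟩ := nonempty_homology_equiv E (h := a - 1) (i := a) (j := a + 1) (by omega) rfl
    (hE0 _ (Or.inl (by omega)))
  have h1 := flat_ker E a b (fun i hi => hE0 i (Or.inr hi)) hEf (fun i hi => hex i (by omega))
    (b - a + 1).toNat a (a + 1) rfl le_rfl (by omega)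
  exact Module.Flat.of_linearEquiv e

end

variable {R : Type u} [CommRing R] {S : Type u} [CommRing S] (φ : R →+* S)

/-- `K` of tor amplitude `[a, b]` over `R` with cohomology only in degree `a` has `H^a(K)` flat over `R`. -/
theorem flat_HD_restrict (a b : ℤ) (K : Dual.D S) (h : HasTorAmplitudeIn R a b ((restrictD φ).obj K))
    (h0 : ∀ i, i ≠ a → Subsingleton (Dual.HD S K i)) :
    Module.Flat R ((ModuleCat.restrictScalars φ).obj
      ((DerivedCategory.homologyFunctor (ModuleCat.{u} S) a).obj K)) := by
  obtain ⟨E, hE0, hEf, ⟨e⟩⟩ := h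
  have key : ∀ i : ℤ, Nonempty (E.homology i ≅ (ModuleCat.restrictScalars φ).obj
      ((DerivedCategory.homologyFunctor (ModuleCat.{u} S) i).obj K)) := by
    intro i
    have e1 := (DerivedCategory.homologyFunctorFactors (ModuleCat.{u} R) i).app E
    have e2 := (DerivedCategory.homologyFunctor (ModuleCat.{u} R) i).mapIso e
    have e3 := Dcoh.MapDer.homologyMapDerApp (ModuleCat.restrictScalars φ) i K
    exact ⟨e1.symm ≪≫ e2 ≪≫ e3⟩
  have hex : ∀ i, i ≠ a → E.ExactAt i := by
    intro i hi
    rw [HomologicalComplex.exactAt_iff_isZero_homology]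
    obtain ⟨ei⟩ := key i
    have : Subsingleton ((DerivedCategory.homologyFunctor (ModuleCat.{u} S) i).obj K) := h0 i hi
    exact IsZero.of_iso ((ModuleCat.restrictScalars φ).map_isZero
      (ModuleCat.isZero_of_subsingleton _)) ei
  have h1 := flat_homology_of_exactAt E a b hE0 hEf hex
  obtain ⟨ea⟩ := key a
  exact Module.Flat.of_linearEquiv ea.symm.toLinearEquiv

end Groth.Agent.Dual.H318.OneDegree
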