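import Groth.Agent.Flat2D.RelDimClosure
import Groth.Prelude.Def_Dual3

/-!
# Morphisms all of whose fibres are pure of dimension `d`

If every irreducible component of every fibre of `f` has dimension `d`, then `f` has fibre dimension
at most `d`, and the local dimension of the fibre at each point is exactly `d` (`f` locally of finite
type).  Also `Dual3.localFibreDim = FlatMor.fibreDimAt`.
-/

set_option autoImplicit false

universe u

open CategoryTheory AlgebraicGeometry TopologicalSpace Topology

namespace Groth.Agent.Dual.H318.PureDim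

open Groth.Agent.VarietyB.DimTop Groth.Agent.Flat2D.RelDimClosure

theorem localFibreDim_eq_fibreDimAt {X S : Scheme.{u}} (f : X ⟶ S) (x : X) :
    Dual3.localFibreDim f x = FlatMor.fibreDimAt f x := by
  rw [Dual3.localFibreDim, FlatMor.fibreDimAt, FlatMor.localDim, iInf_subtype]
  rfl

theorem localFibreDim_eq_localDim {X S : Scheme.{u}} (f : X ⟶ S) (x : X) :
    Dual3.localFibreDim f x = FlatMor.localDim (f.fiber (f x)) (f.asFiber x) :=
  localFibreDim_eq_fibreDimAt f x

variable {X Y : Scheme.{u}} (f : X ⟶ Y) (d : ℕ)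

theorem topologicalKrullDim_fiber_le (y : Y)
    (hd : ∀ Z : Set ↥(f.fiber y), Z ∈ irreducibleComponents ↥(f.fiber y) →
      topologicalKrullDim ↥Z = (d : WithBot ℕ∞)) :
    topologicalKrullDim ↥(f.fiber y) ≤ (d : WithBot ℕ∞) := by
  rw [topologicalKrullDim_eq_iSup_irreducibleComponents]
  exact iSup_le fun Z => (hd Z.1 Z.2).le

theorem fibreDimLE (hd : ∀ (y : Y) (Z : Set ↥(f.fiber y)), Z ∈ irreducibleComponents ↥(f.fiber y) →
      topologicalKrullDim ↥Z = (d : WithBot ℕ∞)) :
    Dual3.FibreDimLE f d :=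
  fun y => topologicalKrullDim_fiber_le f d y (hd y)

/-- Every open neighbourhood of a point of a fibre, pure of dimension `d`, has dimension `≥ d`. -/
theorem le_localDim_fiber [LocallyOfFiniteType f] (y : Y) (x : f.fiber y)
    (hd : ∀ Z : Set ↥(f.fiber y), Z ∈ irreducibleComponents ↥(f.fiber y) →
      topologicalKrullDim ↥Z = (d : WithBot ℕ∞)) :
    (d : WithBot ℕ∞) ≤ FlatMor.localDim (f.fiber y) x := by
  refine le_localDim fun U hU => ?_
  have hZ := irreducibleComponent_mem_irreducibleComponents x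
  have hcl := isClosed_of_mem_irreducibleComponents _ hZ
  have hg := hZ.1.isGenericPoint_genericPoint hcl
  set z := hZ.1.genericPoint with hz
  have hgd : closure {z} = irreducibleComponent x := hg
  have hzx : z ⤳ x := hg.specializes mem_irreducibleComponent
  have hzU : z ∈ U := hzx.mem_open U.2 hU
  obtain ⟨n, hn, hn'⟩ := exists_dim_closure_inter_fiber f y z U hzU
  obtain ⟨m, hm, hm'⟩ := exists_dim_closure_inter_fiber f y z ⊤ trivial
  have hmn : m = n := by
    rw [hn] at hm
    exact_mod_cast hm.symm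
  subst hmn
  have h1 : topologicalKrullDim (closure {z} ∩ ((⊤ : (f.fiber y).Opens) : Set (f.fiber y)) :
      Set (f.fiber y)) = (d : WithBot ℕ∞) := by
    rw [Opens.coe_top, Set.inter_univ, hgd]
    exact hd _ hZ
  rw [← h1, hm', ← hn']
  exact topologicalKrullDim_le_of_isEmbedding (f := id) IsInducing.id _ _ fun _ h => h.2

theorem localDim_fiber_eq [LocallyOfFiniteType f] (y : Y) (x : f.fiber y)
    (hd : ∀ Z : Set ↥(f.fiber y), Z ∈ irreducibleComponents ↥(f.fiber y) →
      topologicalKrullDim ↥Z = (d : WithBot ℕ∞)) :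
    FlatMor.localDim (f.fiber y) x = (d : WithBot ℕ∞) :=
  le_antisymm ((localDim_le_dim x).trans (topologicalKrullDim_fiber_le f d y hd))
    (le_localDim_fiber f d y x hd)

theorem fibreDimAt_eq [LocallyOfFiniteType f]
    (hd : ∀ (y : Y) (Z : Set ↥(f.fiber y)), Z ∈ irreducibleComponents ↥(f.fiber y) →
      topologicalKrullDim ↥Z = (d : WithBot ℕ∞)) (x : X) :
    FlatMor.fibreDimAt f x = (d : WithBot ℕ∞) :=
  localDim_fiber_eq f d (f x) (f.asFiber x) (hd (f x))

theorem localFibreDim_eq [LocallyOfFiniteType f]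
    (hd : ∀ (y : Y) (Z : Set ↥(f.fiber y)), Z ∈ irreducibleComponents ↥(f.fiber y) →
      topologicalKrullDim ↥Z = (d : WithBot ℕ∞)) (x : X) :
    Dual3.localFibreDim f x = (d : WithBot ℕ∞) := by
  rw [localFibreDim_eq_fibreDimAt, fibreDimAt_eq f d hd]

end Groth.Agent.Dual.H318.PureDim
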